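import Cfsg.Agent.H542.EPX.Cells
import Cfsg.Agent.OrdDiv.Main

/-!
# S5745, CrossK: the rows (socle `T ^ k`, `k ≥ 2`) left by the numerical table (helper894)

`Row P G k` : no `H` with socle `N ≅ T ^ k`, `P T`.  One structure for every family; `q` even (the rows with `q` odd die by the 2-rank, `H783.EX`).
-/

set_option autoImplicit false

namespace Cfsg.Agent.H894.EK

open Cfsg Cfsg.Agent.OrdDiv Cfsg.Agent.H209.EPX Cfsg.Agent.H542.EPX

/-- no stabiliser with socle `T ^ k`, `P T` -/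
def Row (P : ∀ (T : Type) [Group T], Prop) (G : Type) [Group G] (k : ℕ) : Prop :=
  ∀ (H N : Subgroup G) (T : Type) [Group T] (e : N ≃* (Fin k → T)), EPS H N e → P T → False

/-- `T` has the name `g` -/
abbrev Nm (g : Grp) : ∀ (T : Type) [Group T], Prop := fun T _ => OrdDiv.Real g T

/-- `E₈(2)` : `A₁₃²`, `A₁₄²` -/
structure RowsE8 (F : Type) [Field F] [Fintype F] : Prop where
  a13 : Fintype.card F = 2 → Row (Nm (.alt 13)) ↥(Lie.chevE8.group F) 2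
  a14 : Fintype.card F = 2 → Row (Nm (.alt 14)) ↥(Lie.chevE8.group F) 2

/-- `E₇(2)` : `U₃(3)³`; `E₇(4)` : `²F₄(2)'³` -/
structure RowsE7 (F : Type) [Field F] [Fintype F] : Prop where
  u33 : Fintype.card F = 2 → Row (Nm (.psu 3 3)) ↥(Lie.chevE7.group F) 3
  tits : Fintype.card F = 4 → Row (Nm .tits) ↥(Lie.chevE7.group F) 3

/-- `E₆(2)` : `U₃(3)²`, `A₇²`; `E₆(4)` : `A₁₀²`, `²F₄(2)'²` -/
structure RowsE6 (F : Type) [Field F] [Fintype F] : Prop where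
  u33 : Fintype.card F = 2 → Row (Nm (.psu 3 3)) ↥(Lie.chevE6.group F) 2
  a7 : Fintype.card F = 2 → Row (Nm (.alt 7)) ↥(Lie.chevE6.group F) 2
  a10 : Fintype.card F = 4 → Row (Nm (.alt 10)) ↥(Lie.chevE6.group F) 2
  tits : Fintype.card F = 4 → Row (Nm .tits) ↥(Lie.chevE6.group F) 2

/-- `²E₆(2)` : `U₃(3)²`, `A₇²`, `A₉²`; `²E₆(4)` : `²F₄(2)'²` -/
structure RowsTE6 (K : Type) [Field K] [Fintype K] (q : ℕ) : Prop where
  u33 : q = 2 → Row (Nm (.psu 3 3)) ↥(Lie.twistedE6 K q) 2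
  a7 : q = 2 → Row (Nm (.alt 7)) ↥(Lie.twistedE6 K q) 2
  a9 : q = 2 → Row (Nm (.alt 9)) ↥(Lie.twistedE6 K q) 2
  tits : q = 4 → Row (Nm .tits) ↥(Lie.twistedE6 K q) 2

/-- `F₄(2)` : `A₆²`, `U₃(3)²`, `A₇²`; `F₄(3)` : `Sz(8)²`; `F₄(4)` : `J₂²`, `²F₄(2)'²` -/
structure RowsF4 (F : Type) [Field F] [Fintype F] : Prop where
  a6 : Fintype.card F = 2 → Row (Nm (.alt 6)) ↥(Lie.chevF4.group F) 2
  u33 : Fintype.card F = 2 → Row (Nm (.psu 3 3)) ↥(Lie.chevF4.group F) 2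
  a7 : Fintype.card F = 2 → Row (Nm (.alt 7)) ↥(Lie.chevF4.group F) 2
  sz8 : Fintype.card F = 3 → Row (Nm (.sz 8)) ↥(Lie.chevF4.group F) 2
  j2 : Fintype.card F = 4 → Row (Nm .j2) ↥(Lie.chevF4.group F) 2
  tits : Fintype.card F = 4 → Row (Nm .tits) ↥(Lie.chevF4.group F) 2

/-- `³D₄(4)` : `A₆²` (`L₂(13)²`, `³D₄(8)`: `U₃(3)²` die by the 8-dimensional module) -/
structure RowsTD4 (K : Type) [Field K] [Fintype K] (q : ℕ) : Prop where
  a6 : q = 4 → Row (Nm (.alt 6)) ↥(Lie.twistedD4 K q) 2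

end Cfsg.Agent.H894.EK
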